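import Cfsg.Agent.H542.Pi.G2Pol
import Cfsg.Agent.H737.Pi.RankTwo
import Cfsg.Agent.BpExc.TorChev
import Cfsg.Agent.KFacts.RgdChevCoord

/-!
# S4324: functions on `G₂(q)` for `s ∣ q - 1` (helper542; instance of helper737's `fun_torus`)

* `w0_inv` : `w₀` inverts the torus of `G₂(q)`;
* `fun_one` : `Fun 5 s G₂(q)` for `s ∣ q - 1`.
-/

set_option autoImplicit false
set_option linter.unusedSectionVars false

namespace Cfsg.Agent.H542.Pi.G2P

open CoxeterSystem Cfsg Cfsg.Lie Cfsg.Lie.ChevalleyDatum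
open Cfsg.Agent.ChevalleyStructure Cfsg.Agent.ChevalleyStructure.Elts Cfsg.Agent.ChevalleyStructure.CoxeterGeom
  Cfsg.Agent.ChevalleyStructure.CoxeterGeomTypes Cfsg.Agent.ChevalleyStructure.NPerm
open Cfsg.Agent.Tits.Roots Cfsg.Agent.Tits.Core Cfsg.Agent.Nodes Cfsg.Agent.Nodes.Reps Cfsg.Agent.Nodes.BNOf
  Cfsg.Agent.Nodes.RGDChev Cfsg.Agent.Nodes.Bruhat
open Cfsg.Agent.KFacts.RgdField Cfsg.Agent.KFacts.RgdChevCoord Cfsg.Agent.BpExc.TorCent Cfsg.Agent.BpExc.TorChev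
open Cfsg.Agent.H176.Pi Cfsg.Agent.KFacts.RgdDiag

variable {F : Type} [Field F]

theorem fin2_cases : ∀ k : Fin 2, k = 0 ∨ k = 1 := by decide

theorem M01 : CoxeterMatrix.G₂ (0 : Fin 2) (1 : Fin 2) = 6 := by decide

theorem A00 : cartanOf chevG2 2 0 0 = 2 := by decide +kernel
theorem A01 : cartanOf chevG2 2 0 1 = -3 := by decide +kernel
theorem A10 : cartanOf chevG2 2 1 0 = -1 := by decide +kernel
theorem A11 : cartanOf chevG2 2 1 1 = 2 := by decide +kernel

theorem refl0 (a : Fin 2 → ℤ) : rep cs hp.isCartan (cs.simple 0) a = ![-a 0 + 3 * a 1, a 1] := by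
  funext k
  rcases fin2_cases k with rfl | rfl
  · rw [rep_simple_apply_self]
    simp only [CoxeterGeom.pairing, Fin.sum_univ_two, A00, A01, Matrix.cons_val_zero]
    ring
  · rw [rep_simple_apply (hk := by decide)]
    rfl

theorem refl1 (a : Fin 2 → ℤ) : rep cs hp.isCartan (cs.simple 1) a = ![a 0, a 0 - a 1] := by
  funext k
  rcases fin2_cases k with rfl | rfl
  · rw [rep_simple_apply (hk := by decide)]
    rfl
  · rw [rep_simple_apply_self]
    show a 1 - CoxeterGeom.pairing (cartanOf chevG2 2) 1 a = a 0 - a 1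
    simp only [CoxeterGeom.pairing, Fin.sum_univ_two, A10, A11]
    ring

theorem refl01 (a : Fin 2 → ℤ) : rep cs hp.isCartan (cs.simple 0 * cs.simple 1) a =
    ![2 * a 0 - 3 * a 1, a 0 - a 1] := by
  rw [map_mul, Module.End.mul_apply, refl1, refl0]
  funext k
  rcases fin2_cases k with rfl | rfl
  · show -a 0 + 3 * (a 0 - a 1) = 2 * a 0 - 3 * a 1
    ring
  · rfl

/-- `w₀ = -1` -/
theorem w0_neg (a : Fin 2 → ℤ) : rep cs hp.isCartan ((cs.simple 0 * cs.simple 1) ^ 3) a = -a := by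
  rw [pow_succ, pow_two, map_mul, map_mul, Module.End.mul_apply, Module.End.mul_apply, refl01, refl01, refl01]
  funext k
  rcases fin2_cases k with rfl | rfl
  · show 2 * (2 * (2 * a 0 - 3 * a 1) - 3 * (a 0 - a 1)) - 3 * ((2 * a 0 - 3 * a 1) - (a 0 - a 1)) = - a 0
    ring
  · show (2 * (2 * a 0 - 3 * a 1) - 3 * (a 0 - a 1)) - ((2 * a 0 - 3 * a 1) - (a 0 - a 1)) = - a 1
    ring

variable [Finite F] (t : ℕ) [Fact t.Prime] [CharP F t]

include t

/-- an element of the torus on which all characters are trivial -/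
theorem eq_one_of_ch (hZ : Subgroup.center (K F) = ⊥) {x : K F} (hx : x ∈ TT chevG2 F)
    (h : ∀ r, IsRoot cs hp.isCartan r → ch hp r x = 1) : x = 1 := by
  have C := coords (K := F) hp cs t
  have h1 : (⊤ : Subgroup (K F)) ≤ Subgroup.centralizer {x} := by
    rw [← G1_eq_top (K := F) hp cs]
    refine RGD.Sup_le fun r hr y hy => ?_
    obtain ⟨a, rfl⟩ := ((C.coord r hr).mem y).1 hy
    rw [Subgroup.mem_centralizer_singleton_iff]
    have h2 := (C.coord r hr).act x hx a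
    rw [h r hr, one_mul] at h2
    exact (mul_inv_eq_iff_eq_mul.1 h2).symm
  rw [← Subgroup.mem_bot, ← hZ, Subgroup.mem_center_iff]
  intro g
  exact Subgroup.mem_centralizer_singleton_iff.1 (h1 (Subgroup.mem_top g))

theorem ch_neg {x : K F} (hx : x ∈ TT chevG2 F) {r : Fin 2 → ℤ} (hr : IsRoot cs hp.isCartan r) :
    ch hp (-r) x * ch hp r x = 1 := by
  obtain ⟨φ, h0, hadd, hφ⟩ := chAdd (K := F) hp cs t x hx
  rw [hφ _ hr, hφ _ hr.neg, ← hadd, neg_add_cancel, h0]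

theorem w0_inv (hZ : Subgroup.center (K F) = ⊥) {x : K F} (hx : x ∈ TT chevG2 F) :
    (nc hp F 0 * nc hp F 1) ^ 3 * x * ((nc hp F 0 * nc hp F 1) ^ 3)⁻¹ = x⁻¹ := by
  have C := coords (K := F) hp cs t
  have R := rg F t
  set g := (nc hp F 0 * nc hp F 1) ^ 3 with hg
  have hRp : Rp cs R.nsys ((cs.simple 0 * cs.simple 1) ^ 3) g :=
    rp_pow ((rp_simple cs R.nsys 0).mul (rp_simple cs R.nsys 1)) 3
  have hgx : g * x * g⁻¹ ∈ TT chevG2 F := (Subgroup.mem_normalizer_iff.1 hRp.1 x).1 hx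
  rw [← mul_eq_one_iff_eq_inv]
  refine eq_one_of_ch t hZ (mul_mem hgx hx) fun r hr => ?_
  rw [(C.coord r hr).chi_mul hgx hx]
  have h1 := C.chi_rp R.nsys hRp hr.neg hx
  rw [w0_neg, neg_neg] at h1
  rw [h1]
  exact ch_neg t hx hr

theorem fun_one (hZ : Subgroup.center (K F) = ⊥) {s : ℕ} (hs : s.Prime) (hs2 : s ≠ 2)
    (hd : s ∣ Nat.card F - 1) : Fun 5 s (K F) := by
  have hfin := finite_W hp cs
  refine H737.Pi.fun_torus (rg F t) (GG_top hp cs) (i := (0 : Fin 2)) (j := (1 : Fin 2)) fin2_cases M01 (TT_comm hp)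
    (fun x hx => w0_inv t hZ hx) hs hs2 ?_
  have C := coords (K := F) hp cs t
  have hr : 11 < chevG2.nroots := by decide +kernel
  have hroot : IsRoot cs hp.isCartan (vec chevG2 2 11) := (isRoot_iff hp cs _).2 ⟨11, hr, rfl⟩
  have CC := C.coord _ hroot
  let φ : ↥(TT chevG2 F) →* Fˣ := MonoidHom.mk' (fun x => Units.mk0 (ch hp (vec chevG2 2 11) (x : K F))
    (CC.chi_ne_zero x.2)) (fun a b => Units.ext (CC.chi_mul a.2 b.2))
  have hφ : Function.Surjective φ := by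
    intro u
    refine ⟨⟨hc hp (1 : Fin 2) (u : F), hc_mem hp _ u.ne_zero⟩, Units.ext ?_⟩
    show ch hp (vec chevG2 2 11) (hc hp (1 : Fin 2) (u : F)) = u
    rw [ch_hc hp (1 : Fin 2) u.ne_zero hr]
    have h1 : chevG2.cartan ((1 : Fin 2) : ℕ) 11 = 1 := by decide +kernel
    rw [h1, zpow_one]
  have hker : ((XX chevG2 2 F (sr 0) ⊔ XX chevG2 2 F (-sr 0)) ⊓ TT chevG2 F).subgroupOf (TT chevG2 F) ≤ φ.ker := by
    intro x hx
    rw [Subgroup.mem_subgroupOf] at hx
    obtain ⟨a, ha, hax⟩ := ((coroots (K := F) hp cs t).mem 0 (x : K F)).1 ⟨hx.2, hx.1⟩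
    rw [MonoidHom.mem_ker]
    apply Units.ext
    show ch hp (vec chevG2 2 11) (x : K F) = 1
    rw [← hax, ch_hc hp (0 : Fin 2) ha hr]
    have h1 : chevG2.cartan ((0 : Fin 2) : ℕ) 11 = 0 := by decide +kernel
    rw [h1, zpow_zero]
  refine hd.trans ?_
  have h1 : φ.ker.index = Nat.card F - 1 := by
    rw [Subgroup.index_ker, MonoidHom.range_eq_top.2 hφ, Subgroup.card_top, Nat.card_units]
  rw [← h1]
  exact Subgroup.index_dvd_of_le hker

end Cfsg.Agent.H542.Pi.G2P
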